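import Cfsg.Agent.H147.SzReal
import Cfsg.Agent.H162.CC.Tools3

/-!
# S3828: the row of the Suzuki groups

`crow_sz`: in a Suzuki group there is no non-trivial `C` with `Min p C`.
-/

set_option autoImplicit false

namespace Cfsg.Agent.H793.CC.Sz

open Cfsg.Agent.LieRecognition.SzMatrix Cfsg.Agent.H147.Sz Cfsg.Agent.H162.CCR
open Cfsg Cfsg.Agent.Lib.Cores

variable {F : Type*} [Field F] {θ : F →+* F} {e : ℕ}

theorem tr_one (H : Good F θ e) : tr (1 : ↥(Cfsg.Lie.Sz F e)) = 0 := by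
  rw [← H.u_zero, tr_u]

/-- the trace of a 2-element is 0 -/
theorem tr_of_pow (H : Good F θ e) {g : ↥(Cfsg.Lie.Sz F e)} {n : ℕ} (h : g ^ 2 ^ n = 1) : tr g = 0 := by
  have h1 : ∀ n : ℕ, tr (g ^ 2 ^ n) = tr g ^ 2 ^ n := by
    intro n
    induction n with
    | zero => simp
    | succ n ih => rw [pow_succ 2 n, pow_mul, pow_two (g ^ 2 ^ n), tr_sq H.two, ih, ← pow_mul]
  have h2 := h1 n
  rw [h, tr_one H] at h2
  exact pow_eq_zero_iff (pow_ne_zero n two_ne_zero) |>.1 h2.symm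

theorem pow4 {M : Type*} [Monoid M] (x : M) : x ^ 4 = (x * x) * (x * x) := by
  simp only [pow_succ, pow_zero, one_mul, mul_assoc]

theorem u_pow_four (H : Good F θ e) (a b : F) : H.u a b ^ 4 = 1 := by
  rw [pow4, u_sq, u_sq, zero_mul, H.u_zero]

/-- elements of trace 0 have order dividing 4 -/
theorem pow_four_of_tr [Finite F] (H : Good F θ e) (hR : Real H) {g : ↥(Cfsg.Lie.Sz F e)} (hg : tr g = 0) :
    g ^ 4 = 1 := by
  by_cases hg1 : g = 1
  · rw [hg1, one_pow]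
  rcases normal_form H hR hg1 with ⟨k, hk, -⟩ | ⟨-, ⟨h, -⟩ | ⟨-, b, h⟩⟩
  · exact absurd (hk.trans hg) k.ne_zero
  · rw [pow4, h, one_mul]
  · obtain ⟨x, hx⟩ := isConj_iff.1 h
    have h1 := u_pow_four H 1 b
    rw [← hx, conj_pow] at h1
    exact conj_eq_one_iff.1 h1

theorem eq_one_of_pow {G : Type*} [Group G] {x : G} {p k : ℕ} [hp : Fact p.Prime] (hp2 : p ≠ 2)
    (h : orderOf x = p ^ k) (h4 : x ^ 4 = 1) : x = 1 := by
  have h1 : orderOf x ∣ 4 := orderOf_dvd_of_pow_eq_one h4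
  have h2 : Nat.Coprime (p ^ k) 4 := by
    have : Nat.Coprime p 2 := (Nat.coprime_primes hp.out Nat.prime_two).2 hp2
    exact Nat.Coprime.pow k 2 this
  rw [h] at h1
  have h3 : p ^ k = 1 := Nat.eq_one_of_dvd_coprimes h2 dvd_rfl h1
  rw [← orderOf_eq_one_iff, h, h3]

/-! ### the torus -/

theorem torus_unip (H : Good F θ e) (k : Fˣ) {s : ↥(Cfsg.Lie.Sz F e)} (hs : s ∈ H.unip) :
    ∃ t ∈ H.unip, H.d k * s = t * H.d k := by
  obtain ⟨a, b, rfl⟩ := (H.mem_unip_iff s).1 hs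
  exact ⟨_, H.u_mem_unip _ _, H.d_mul_u k a b⟩

theorem unip_mul_d_inj (H : Good F θ e) {s t : ↥(Cfsg.Lie.Sz F e)} (hs : s ∈ H.unip) (ht : t ∈ H.unip) {k l : Fˣ}
    (h : s * H.d k = t * H.d l) : k = l := by
  obtain ⟨a, b, rfl⟩ := (H.mem_unip_iff s).1 hs
  obtain ⟨c, d, rfl⟩ := (H.mem_unip_iff t).1 ht
  exact (H.u_mul_d_inj h).2.2

/-- conjugates of torus elements under the Borel subgroup -/
theorem borel_conj_d (H : Good F θ e) {x : ↥(Cfsg.Lie.Sz F e)} (hx : x ∈ H.borel) (k : Fˣ) :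
    ∃ t ∈ H.unip, x * H.d k * x⁻¹ = t * H.d k := by
  obtain ⟨a, b, j, rfl⟩ := (H.mem_borel_iff' x).1 hx
  have h1 : H.u a b * H.d j * H.d k * (H.u a b * H.d j)⁻¹ = H.u a b * H.d k * (H.u a b)⁻¹ := by
    have h2 : H.d j * H.d k = H.d k * H.d j := by rw [H.d_mul, H.d_mul, mul_comm]
    rw [_root_.mul_inv_rev, mul_assoc (H.u a b), h2]
    group
  obtain ⟨t, ht, h3⟩ := torus_unip H k (inv_mem (H.u_mem_unip a b))
  refine ⟨H.u a b * t, mul_mem (H.u_mem_unip a b) ht, ?_⟩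
  rw [h1, mul_assoc, h3, mul_assoc]

theorem d_conj (H : Good F θ e) {k l : Fˣ} (h : IsConj (H.d k) (H.d l)) : l = k ∨ l = k⁻¹ := by
  obtain ⟨x, hx⟩ := isConj_iff.1 h
  by_cases hb : x ∈ H.borel
  · left
    obtain ⟨t, ht, h1⟩ := borel_conj_d H hb k
    rw [h1] at hx
    have h2 : t * H.d k = 1 * H.d l := by rw [hx, one_mul]
    exact (unip_mul_d_inj H ht (one_mem _) h2).symm
  · right
    obtain ⟨s, hs, hb⟩ := H.bruhat_sz x hb
    set b := (s * H.w)⁻¹ * x with hbdef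
    have hxe : x = s * H.w * b := by rw [hbdef]; group
    obtain ⟨v, hv, h1⟩ := borel_conj_d H hb k
    have h2 : s * H.w * (v * H.d k) * (H.w)⁻¹ * s⁻¹ = H.d l := by
      rw [← h1, ← hx, hxe]
      group
    obtain ⟨t, ht, h3⟩ := torus_unip H l hs
    have hwd : H.w * H.d k * (H.w)⁻¹ = H.d k⁻¹ := by
      rw [H.w_mul_d, mul_inv_cancel_right]
    have h4 : H.w * v * (H.w)⁻¹ = s⁻¹ * H.d l * s * (H.d k⁻¹)⁻¹ := by
      rw [← h2, ← hwd]
      group
    have h5 : v = 1 := by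
      apply H.inter_trivial v hv
      have h6 : (H.w)⁻¹ * v * H.w = H.w * v * (H.w)⁻¹ := by rw [H.w_inv]
      rw [h6, h4]
      exact mul_mem (mul_mem (mul_mem (inv_mem (H.unip_le_borel hs)) (H.d_mem_borel l)) (H.unip_le_borel hs))
        (inv_mem (H.d_mem_borel _))
    rw [h5] at h4
    have h7 : t * H.d l = s * H.d k⁻¹ := by
      rw [← h3]
      have h8 : s⁻¹ * H.d l * s * (H.d k⁻¹)⁻¹ = 1 := by rw [← h4]; group
      calc H.d l * s = s * (s⁻¹ * H.d l * s * (H.d k⁻¹)⁻¹) * H.d k⁻¹ := by group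
        _ = s * H.d k⁻¹ := by rw [h8, mul_one]
    exact unip_mul_d_inj H ht hs h7

theorem d_tr_ne_zero [Finite F] (H : Good F θ e) (hR : Real H) {k : Fˣ} (hk : k ≠ 1) : tr (H.d k) ≠ 0 := by
  intro h
  have h1 := pow_four_of_tr H hR h
  have h2 : H.d k ^ 4 = H.d (k * k * (k * k)) := by
    rw [← H.d_mul, ← H.d_mul, pow4]
  rw [h2, ← H.d_one] at h1
  exact hk (unit_sq_eq_one H (unit_sq_eq_one H (H.d_inj h1)))

theorem theta_eq_sq (H : Good F θ e) {k : Fˣ} (h : (k : F) ^ 2 * (θ k)⁻¹ = 1) : k = 1 := by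
  have h0 := theta_ne_zero θ k
  have h1 : θ (k : F) = (k : F) ^ 2 := by
    field_simp at h
    exact h.symm
  have h2 := H.sq (k : F)
  rw [h1, map_pow, h1] at h2
  have hk := k.ne_zero
  have h3 : (k : F) * k = 1 := by
    have : (k : F) ^ 2 * ((k : F) * k) = (k : F) ^ 2 * 1 := by linear_combination h2
    exact mul_left_cancel₀ (pow_ne_zero 2 hk) this
  exact unit_sq_eq_one H (Units.ext h3)

theorem borel_ne_top (H : Good F θ e) : H.borel ≠ ⊤ := fun h => H.w_not_mem_borel (h ▸ Subgroup.mem_top _)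

/-- torus elements in `C` are trivial (`p` odd) -/
theorem d_eq_one (H : Good F θ e) [Finite F] {p : ℕ} [hp : Fact p.Prime] (hp2 : p ≠ 2)
    {C : Set ↥(Cfsg.Lie.Sz F e)} (hC : Min p C) {k : Fˣ} (hk : H.d k ∈ C) : k = 1 := by
  have h1 := hC.loc H.borel (borel_ne_top H) _ hk (H.d_mem_borel k)
  set x : H.borel := ⟨H.d k, H.d_mem_borel k⟩ with hx
  set y : H.borel := ⟨H.u 1 0, H.u_mem_borel 1 0⟩ with hy
  have hn : (pCore p H.borel).Normal := inferInstance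
  have h2 : x * y * x⁻¹ * y⁻¹ ∈ pCore p H.borel := by
    have e1 : x * y * x⁻¹ * y⁻¹ = x * (y * x⁻¹ * y⁻¹) := by group
    rw [e1]
    exact mul_mem h1 (hn.conj_mem _ (inv_mem h1) _)
  obtain ⟨j, hj⟩ := pCore_isPGroup p (G := H.borel) ⟨_, h2⟩
  have hj' : (x * y * x⁻¹ * y⁻¹) ^ p ^ j = 1 := congrArg Subtype.val hj
  have h3 : ((x * y * x⁻¹ * y⁻¹ : H.borel) : ↥(Cfsg.Lie.Sz F e)) ∈ H.unip := by
    have := H.borel_normalizes _ (H.d_mem_borel k) _ (H.u_mem_unip 1 0)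
    exact mul_mem this (inv_mem (H.u_mem_unip 1 0))
  obtain ⟨a, b, hab⟩ := (H.mem_unip_iff _).1 h3
  have h4 : (x * y * x⁻¹ * y⁻¹) ^ 4 = 1 := by
    apply Subtype.ext
    show ((x * y * x⁻¹ * y⁻¹ : H.borel) : ↥(Cfsg.Lie.Sz F e)) ^ 4 = 1
    rw [hab, u_pow_four]
  have h5 : x * y * x⁻¹ * y⁻¹ = 1 := by
    obtain ⟨i, -, hi⟩ := (Nat.dvd_prime_pow hp.out).1 (orderOf_dvd_of_pow_eq_one hj')
    exact eq_one_of_pow hp2 hi h4
  have h6 : H.d k * H.u 1 0 = H.u 1 0 * H.d k := by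
    have h7 : x * y = y * x := by
      calc x * y = (x * y * x⁻¹ * y⁻¹) * (y * x) := by group
        _ = y * x := by rw [h5, one_mul]
    exact congrArg Subtype.val h7
  rw [H.d_mul_u] at h6
  obtain ⟨h7, -, -⟩ := H.u_mul_d_inj h6
  exact theta_eq_sq H (by rw [← h7]; ring)

/-! ### the field -/

theorem exists_of_mem_A [Finite F] (H : Good F θ e) {x : F} (hx : x ∈ A θ) : ∃ z : F, z ^ 4 + z ^ 2 = x := by
  obtain ⟨c, hc⟩ := hx
  have hc : c + θ c = x := hc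
  obtain ⟨v, hv⟩ : ∃ v : F, v + v ^ 2 = x := by
    by_cases h : c ∈ A θ
    · obtain ⟨v, hv⟩ := h
      have hv : v + θ v = c := hv
      refine ⟨v, ?_⟩
      rw [← hc, ← hv, map_add, H.sq]
      linear_combination (-θ v) * H.two
    · have h1 : c + 1 ∈ A θ := by
        rw [add_mem_iff H]
        exact ⟨fun h' => absurd h' h, fun h' => absurd h' (one_notMem H)⟩
      obtain ⟨v, hv⟩ := h1
      have hv : v + θ v = c + 1 := hv
      refine ⟨v, ?_⟩
      have hv' : c = v + θ v - 1 := by rw [hv]; ring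
      rw [← hc, hv', map_sub, map_add, H.sq, map_one]
      linear_combination (1 - θ v) * H.two
  obtain ⟨z, hz⟩ := exists_sq H v
  refine ⟨z, ?_⟩
  rw [← hv, ← hz]
  ring

theorem pow_four_inj (H : Good F θ e) {x y : F} (h : x ^ 4 = y ^ 4) : x = y := by
  have h1 : (x - y) ^ 4 = 0 := by
    linear_combination h + (2 * y ^ 4 - 2 * x ^ 3 * y + 3 * x ^ 2 * y ^ 2 - 2 * x * y ^ 3 - y ^ 4) * H.two
  have := pow_eq_zero_iff (n := 4) (by norm_num) |>.1 h1
  linear_combination this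

theorem card_A [Fintype F] (H : Good F θ e) [DecidablePred (fun x : F => x ∈ A θ)] :
    2 * (Finset.univ.filter (fun x : F => x ∈ A θ)).card = Fintype.card F := by
  have h1 := (A θ).card_mul_index
  rw [index_two H, Nat.card_eq_fintype_card, Nat.card_eq_fintype_card] at h1
  rw [← h1, mul_comm]
  congr 1
  rw [← Nat.card_eq_fintype_card, ← Fintype.card_subtype, ← Nat.card_eq_fintype_card]

open Classical in
theorem key_false [Fintype F] (H : Good F θ e) (hcard : 4 < Fintype.card F) (X : Finset F)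
    (hX : 2 * X.card ≤ Fintype.card F + 2) (h : ∀ κ ∈ X, κ ≠ 0 → ∀ z : F, κ ^ 4 * (z ^ 4 + z ^ 2) ∈ X)
    (hne : ∃ κ ∈ X, κ ≠ 0) : False := by
  set AF := Finset.univ.filter (fun x : F => x ∈ A θ) with hAF
  have hA : 2 * AF.card = Fintype.card F := card_A H
  have hA3 : 3 ≤ AF.card := by omega
  -- every `κ⁴A` is in `X`
  have h1 : ∀ κ ∈ X, κ ≠ 0 → ∀ x ∈ A θ, κ ^ 4 * x ∈ X := by
    intro κ hκ hκ0 x hx
    obtain ⟨z, hz⟩ := exists_of_mem_A H hx
    rw [← hz]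
    exact h κ hκ hκ0 z
  have big : ∀ y z : F, ∃ x ∈ A θ, x ≠ y ∧ x ≠ z := by
    intro y z
    by_contra hcon
    push Not at hcon
    have h2 : AF ⊆ {y, z} := by
      intro x hx
      rw [hAF, Finset.mem_filter] at hx
      by_cases hxy : x = y
      · simp [hxy]
      · simp [hcon x hx.2 hxy]
    have h3 := Finset.card_le_card h2
    have h4 : ({y, z} : Finset F).card ≤ 2 := Finset.card_le_two
    omega
  obtain ⟨κ, hκ, hκ0⟩ := hne
  have hκ4 : κ ^ 4 ≠ 0 := pow_ne_zero 4 hκ0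
  -- at most one element of `X` outside `κ⁴A`
  have h2 : ∀ y z : F, κ ^ 4 * y ∈ X → κ ^ 4 * z ∈ X → y ∉ A θ → z ∉ A θ → y = z := by
    intro y z hy hz hyA hzA
    by_contra hyz
    have h3 : insert (κ ^ 4 * y) (insert (κ ^ 4 * z) (AF.image (fun x => κ ^ 4 * x))) ⊆ X := by
      intro t ht
      rw [Finset.mem_insert, Finset.mem_insert, Finset.mem_image] at ht
      rcases ht with rfl | rfl | ⟨x, hx, rfl⟩
      · exact hy
      · exact hz
      · rw [hAF, Finset.mem_filter] at hx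
        exact h1 κ hκ hκ0 x hx.2
    have hz' : κ ^ 4 * z ∉ AF.image (fun x => κ ^ 4 * x) := by
      intro hh
      obtain ⟨x, hx, hxe⟩ := Finset.mem_image.1 hh
      rw [hAF, Finset.mem_filter] at hx
      exact hzA (mul_left_cancel₀ hκ4 hxe ▸ hx.2)
    have hy' : κ ^ 4 * y ∉ insert (κ ^ 4 * z) (AF.image (fun x => κ ^ 4 * x)) := by
      intro hh
      rcases Finset.mem_insert.1 hh with hh | hh
      · exact hyz (mul_left_cancel₀ hκ4 hh)
      · obtain ⟨x, hx, hxe⟩ := Finset.mem_image.1 hh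
        rw [hAF, Finset.mem_filter] at hx
        exact hyA (mul_left_cancel₀ hκ4 hxe ▸ hx.2)
    have h4 := Finset.card_le_card h3
    rw [Finset.card_insert_of_notMem hy', Finset.card_insert_of_notMem hz',
      Finset.card_image_of_injective _ (mul_right_injective₀ hκ4)] at h4
    omega
  -- a second `κ'`
  obtain ⟨x0, hx0, hx00, hx01⟩ := big 0 (κ * (κ ^ 4)⁻¹)
  set κ' := κ ^ 4 * x0 with hκ'
  have hκ'X : κ' ∈ X := h1 κ hκ hκ0 x0 hx0
  have hκ'0 : κ' ≠ 0 := mul_ne_zero hκ4 hx00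
  have hκκ' : κ' ≠ κ := by
    intro hh
    apply hx01
    rw [eq_mul_inv_iff_mul_eq₀ hκ4, mul_comm]
    exact hh
  set c := κ' ^ 4 / κ ^ 4 with hc
  have hc0 : c ≠ 0 := div_ne_zero (pow_ne_zero 4 hκ'0) hκ4
  have hc1 : c ≠ 1 := by
    intro hh
    rw [hc, div_eq_one_iff_eq hκ4] at hh
    exact hκκ' (pow_four_inj H hh)
  have h3 : ∀ x ∈ A θ, κ ^ 4 * (c * x) ∈ X := by
    intro x hx
    have : κ ^ 4 * (c * x) = κ' ^ 4 * x := by
      rw [hc]
      field_simp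
    rw [this]
    exact h1 κ' hκ'X hκ'0 x hx
  obtain ⟨x, hx, hcx⟩ := exists_mul_notMem H hc0 hc1
  obtain ⟨z, hz, hz0, hzx⟩ := big 0 x
  by_cases hcz : c * z ∈ A θ
  · have h4 : c * (x + z) ∉ A θ := by
      rw [mul_add, add_mem_iff H]
      exact fun h' => hcx (h'.2 hcz)
    have h5 := h2 _ _ (h3 x hx) (h3 (x + z) ((A θ).add_mem hx hz)) hcx h4
    have h6 := mul_left_cancel₀ hc0 h5
    exact hz0 (by linear_combination -h6)
  · have h5 := h2 _ _ (h3 x hx) (h3 z hz) hcx hcz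
    exact hzx (mul_left_cancel₀ hc0 h5).symm

/-! ### the trace of `[e, e^g]` -/

theorem tr_comm (H : Good F θ e) (b s : F) :
    tr ((H.w * H.u 0 b)⁻¹ * ((H.u 0 s)⁻¹ * (H.w * H.u 0 b) * H.u 0 s)⁻¹ * (H.w * H.u 0 b) *
      ((H.u 0 s)⁻¹ * (H.w * H.u 0 b) * H.u 0 s)) = (θ (b + s) * θ s) ^ 2 := by
  have hi : ∀ x : F, (H.u 0 x)⁻¹ = H.u 0 x := by
    intro x
    rw [H.u_inv, zero_mul, add_zero]
  have hm : ∀ x y : F, H.u 0 x * H.u 0 y = H.u 0 (x + y) := by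
    intro x y
    rw [H.u_mul, zero_mul, add_zero, add_zero]
  have h1 : (H.w * H.u 0 b)⁻¹ * ((H.u 0 s)⁻¹ * (H.w * H.u 0 b) * H.u 0 s)⁻¹ * (H.w * H.u 0 b) *
      ((H.u 0 s)⁻¹ * (H.w * H.u 0 b) * H.u 0 s) =
      H.u 0 b * (H.w * (H.u 0 b * H.u 0 s)⁻¹⁻¹ * H.w * H.u 0 s * (H.w * (H.u 0 b * H.u 0 s) * H.w)) *
        (H.u 0 b * H.u 0 s) := by
    have e1 : (H.w * H.u 0 b)⁻¹ = H.u 0 b * H.w := by rw [_root_.mul_inv_rev, hi, H.w_inv]
    have e2 : ((H.u 0 s)⁻¹ * (H.w * H.u 0 b) * H.u 0 s)⁻¹ = H.u 0 s * H.u 0 b * H.w * H.u 0 s := by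
      rw [_root_.mul_inv_rev, _root_.mul_inv_rev, e1, hi, hi]
      group
    rw [e1, e2, hi]
    have e3 : H.u 0 s * H.u 0 b = H.u 0 b * H.u 0 s := by rw [hm, hm, add_comm]
    have e4 : (H.u 0 b * H.u 0 s)⁻¹⁻¹ = H.u 0 s * H.u 0 b := by rw [inv_inv, e3]
    rw [e4]
    calc H.u 0 b * H.w * (H.u 0 s * H.u 0 b * H.w * H.u 0 s) * (H.w * H.u 0 b) * (H.u 0 s * (H.w * H.u 0 b) * H.u 0 s) =
        H.u 0 b * (H.w * (H.u 0 s * H.u 0 b) * H.w * H.u 0 s * (H.w * (H.u 0 b * H.u 0 s) * H.w)) *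
          (H.u 0 b * H.u 0 s) := by group
      _ = _ := rfl
  rw [h1, inv_inv, tr_mul_comm, hm]
  have h2 : H.u 0 (b + s) * (H.u 0 b * (H.w * H.u 0 (b + s) * H.w * H.u 0 s * (H.w * H.u 0 (b + s) * H.w))) =
      (H.u 0 s * (H.w * H.u 0 (b + s) * H.w)) * (H.u 0 s * (H.w * H.u 0 (b + s) * H.w)) := by
    have e5 : H.u 0 (b + s) * H.u 0 b = H.u 0 s := by
      rw [hm]
      congr 1
      linear_combination b * H.two
    rw [← mul_assoc, e5]
    group
  rw [h2, tr_sq H.two, tr_mul_comm, tr_wuwu]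
  congr 1
  simp only [map_zero, zero_mul, mul_zero]
  ring

/-! ### the row -/

section Odd

variable [Fintype F] (H : Good F θ e) (hR : Real H) {p : ℕ} [hp : Fact p.Prime] {C : Set ↥(Cfsg.Lie.Sz F e)}

include hR in
theorem tr_ne_zero (hp2 : p ≠ 2) (hC : Min p C) {c : ↥(Cfsg.Lie.Sz F e)} (hc : c ∈ C) (hc1 : c ≠ 1) : tr c ≠ 0 := by
  intro h0
  obtain ⟨k, hk⟩ := hC.pel c hc
  exact hc1 (eq_one_of_pow hp2 hk (pow_four_of_tr H hR h0))

include hR in
theorem mem_of_tr (hC : Min p C) {c g : ↥(Cfsg.Lie.Sz F e)} (hc : c ∈ C) (hc0 : tr c ≠ 0) (h : tr g = tr c) :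
    g ∈ C := by
  obtain ⟨x, hx⟩ := isConj_iff.1 (isConj_of_tr H hR hc0 h.symm)
  rw [← hx]
  exact hC.conj_mem x hc

include hR in
theorem row_odd (hcard : 4 < Fintype.card F) (hp2 : p ≠ 2) (hC : Min p C) {c : ↥(Cfsg.Lie.Sz F e)} (hc : c ∈ C) :
    c = 1 := by
  classical
  by_contra hc1
  set X : Finset F := Finset.univ.filter (fun T => T = 0 ∨ ∃ c ∈ C, tr c = T) with hX
  have hXm : ∀ T : F, T ∈ X ↔ T = 0 ∨ ∃ c ∈ C, tr c = T := by
    intro T
    rw [hX, Finset.mem_filter]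
    simp
  refine key_false H hcard X ?_ ?_ ⟨tr c, (hXm _).2 (Or.inr ⟨c, hc, rfl⟩), tr_ne_zero H hR hp2 hC hc hc1⟩
  · -- the torus traces
    set K : Finset Fˣ := Finset.univ.erase 1 with hK
    have hKc : K.card = Fintype.card F - 2 := by
      rw [hK, Finset.card_erase_of_mem (Finset.mem_univ _), Finset.card_univ, Fintype.card_units]
      omega
    have h1 : K.card ≤ 2 * (K.image (fun k => tr (H.d k))).card := by
      apply Finset.card_le_mul_card_image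
      intro a ha
      obtain ⟨k, hk, rfl⟩ := Finset.mem_image.1 ha
      have h2 : K.filter (fun x => tr (H.d x) = tr (H.d k)) ⊆ {k, k⁻¹} := by
        intro l hl
        rw [Finset.mem_filter] at hl
        have hk1 : k ≠ 1 := Finset.ne_of_mem_erase hk
        have h3 := isConj_of_tr H hR (d_tr_ne_zero H hR hk1) hl.2.symm
        rcases d_conj H h3 with h4 | h4
        · simp [h4]
        · simp [h4]
      exact (Finset.card_le_card h2).trans Finset.card_le_two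
    have h2 : Disjoint X (K.image (fun k => tr (H.d k))) := by
      rw [Finset.disjoint_left]
      intro T hT hT'
      obtain ⟨k, hk, rfl⟩ := Finset.mem_image.1 hT'
      have hk1 : k ≠ 1 := Finset.ne_of_mem_erase hk
      have h3 := d_tr_ne_zero H hR hk1
      rcases (hXm _).1 hT with h4 | ⟨c', hc', h4⟩
      · exact h3 h4
      · have h5 := mem_of_tr H hR hC hc' (by rw [h4]; exact h3) h4.symm
        exact hk1 (d_eq_one H hp2 hC h5)
    have h3 := Finset.card_union_of_disjoint h2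
    have h4 : (X ∪ K.image (fun k => tr (H.d k))).card ≤ Fintype.card F := Finset.card_le_univ _
    omega
  · intro κ hκ hκ0 z
    rcases (hXm _).1 hκ with h | ⟨c', hc', h⟩
    · exact absurd h hκ0
    obtain ⟨b, hb⟩ := theta_surj (θ := θ) κ
    obtain ⟨s, hs⟩ := theta_surj (θ := θ) (κ * z)
    have h1 : H.w * H.u 0 b ∈ C := by
      apply mem_of_tr H hR hC hc' (by rw [h]; exact hκ0)
      rw [h, tr_wu, hb]
      simp
    rw [hXm]
    right
    refine ⟨_, hC.comm_conj (H.u 0 s) h1, ?_⟩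
    rw [tr_comm, map_add, hb, hs]
    linear_combination (κ ^ 4 * z ^ 3) * H.two

end Odd

section Two

variable [Finite F] (H : Good F θ e) (hR : Real H) {C : Set ↥(Cfsg.Lie.Sz F e)}

theorem pow_of_mem (hC : Min 2 C) {c : ↥(Cfsg.Lie.Sz F e)} (hc : c ∈ C) : ∃ n : ℕ, c ^ 2 ^ n = 1 := by
  obtain ⟨k, hk⟩ := hC.pel c hc
  exact ⟨k, hk ▸ pow_orderOf_eq_one c⟩

include H in
theorem no_inv (hC : Min 2 C) {c : ↥(Cfsg.Lie.Sz F e)} (hc : c ∈ C) (hcc : c * c = 1) : c = 1 := by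
  by_contra hc1
  have h1 : IsConj c (H.u 0 1) := isConj_invol H hc1 hcc
  have hw1 : H.w ≠ 1 := fun h => H.w_not_mem_borel (h ▸ one_mem _)
  have h2 : IsConj c H.w := h1.trans (isConj_invol H hw1 H.w_mul_w).symm
  have hmem : ∀ {g : ↥(Cfsg.Lie.Sz F e)}, IsConj c g → g ∈ C := by
    intro g hg
    obtain ⟨x, hx⟩ := isConj_iff.1 hg
    rw [← hx]
    exact hC.conj_mem x hc
  have h3 := hC.comm _ (hmem h1) _ (hmem h2)
  obtain ⟨n, hn⟩ := pow_of_mem hC h3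
  have h4 := tr_of_pow H hn
  have h5 : (H.u 0 1)⁻¹ * (H.w)⁻¹ * H.u 0 1 * H.w = (H.u 0 1 * H.w) * (H.u 0 1 * H.w) := by
    rw [H.w_inv, H.u_inv, zero_mul, add_zero]
    group
  rw [h5, tr_sq H.two, tr_mul_comm, tr_wu] at h4
  simp at h4

include hR in
theorem row_two (hcard : 2 < Nat.card F) (hC : Min 2 C) {c : ↥(Cfsg.Lie.Sz F e)} (hc : c ∈ C) : c = 1 := by
  by_contra hc1
  obtain ⟨n, hn⟩ := pow_of_mem hC hc
  have h0 := tr_of_pow H hn
  rcases normal_form H hR hc1 with ⟨k, hk, -⟩ | ⟨-, ⟨h, -⟩ | ⟨-, b, h⟩⟩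
  · exact k.ne_zero (hk.trans h0)
  · exact hc1 (no_inv H hC hc h)
  obtain ⟨x, hx⟩ := isConj_iff.1 h
  have hg : H.u 1 b ∈ C := hx ▸ hC.conj_mem x hc
  obtain ⟨z, hz0, hz1⟩ := exists_ne (F := F) hcard
  set k : Fˣ := Units.mk0 z hz0 with hk
  have hg' := hC.conj_mem (H.d k) hg
  rw [d_conj_u, one_mul] at hg'
  set μ : F := (k : F) ^ 2 * (θ k)⁻¹ with hμ
  have h1 := hC.comm _ hg _ hg'
  have h2 : (H.u 1 b)⁻¹ * (H.u μ (b * θ k))⁻¹ * H.u 1 b * H.u μ (b * θ k) = 1 := by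
    apply no_inv H hC h1
    rw [H.u_inv, H.u_inv, H.u_mul, H.u_mul, H.u_mul]
    have e1 : (1 : F) + μ + 1 + μ = 0 := by linear_combination (1 + μ) * H.two
    rw [e1, u_sq, zero_mul, H.u_zero]
  have h3 : H.u 1 b * H.u μ (b * θ k) = H.u μ (b * θ k) * H.u 1 b := by
    calc H.u 1 b * H.u μ (b * θ k) = H.u μ (b * θ k) * H.u 1 b *
          ((H.u 1 b)⁻¹ * (H.u μ (b * θ k))⁻¹ * H.u 1 b * H.u μ (b * θ k)) := by group
      _ = _ := by rw [h2, mul_one]
  rw [H.u_mul, H.u_mul] at h3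
  obtain ⟨-, h4⟩ := H.u_inj h3
  have h5 : θ μ = μ := by
    rw [map_one] at h4
    linear_combination h4
  have hμ0 : μ ≠ 0 := by
    rw [hμ]
    exact mul_ne_zero (pow_ne_zero 2 k.ne_zero) (inv_ne_zero (theta_ne_zero θ k))
  rcases fix_theta H h5 with h6 | h6
  · exact hμ0 h6
  · have h7 := theta_eq_sq H h6
    apply hz1
    have := congrArg Units.val h7
    rwa [hk, Units.val_mk0, Units.val_one] at this

end Two

/-- **The row of the Suzuki groups.** -/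
theorem crow_sz {G : Type*} [Group G] (h : Cfsg.Lie.IsoSuzuki G) (p : ℕ) [hp : Fact p.Prime] : CRow p G := by
  obtain ⟨F, _, _, m, hm, hF, ⟨f⟩⟩ := h
  refine CRow.of_equiv f ?_
  intro C hC c hc
  have hq : 8 ≤ Fintype.card F := by
    rw [hF]
    calc 8 = 2 ^ 3 := by norm_num
      _ ≤ 2 ^ (2 * m + 1) := Nat.pow_le_pow_right (by norm_num) (by omega)
  by_cases hp2 : p = 2
  · subst hp2
    exact row_two (good hF) (real hm hF) (by rw [Nat.card_eq_fintype_card]; omega) hC hc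
  · exact row_odd (good hF) (real hm hF) (by omega) hp2 hC hc

end Cfsg.Agent.H793.CC.Sz
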